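import Mathlib
import Cfsg.Agent.Lib.Helper58.SdSpectrum
import Cfsg.Agent.Lib.Helper41.SL2

set_option autoImplicit false

namespace Cfsg.Agent.Lib.Helper68.ReeCube


variable (F : Type*) [Field F] [CharP F 3] (ι : Type*)

/-- entrywise cube of a `2 × 2` matrix, as a ring homomorphism -/
noncomputable def cubeM : Matrix (Fin 2) (Fin 2) F →+* Matrix (Fin 2) (Fin 2) F :=
  (frobenius F 3).mapMatrix

/-- the module: `ι` copies of the `2 × 2` matrices -/
abbrev VV := ι → Matrix (Fin 2) (Fin 2) F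

theorem cubeM_inv_mul (g : Matrix.SpecialLinearGroup (Fin 2) F) :
    cubeM F (g⁻¹).1 * cubeM F g.1 = 1 := by
  rw [← map_mul, ← Matrix.SpecialLinearGroup.coe_mul, inv_mul_cancel]
  simp

theorem cubeM_mul_inv (g : Matrix.SpecialLinearGroup (Fin 2) F) :
    cubeM F g.1 * cubeM F (g⁻¹).1 = 1 := by
  rw [← map_mul, ← Matrix.SpecialLinearGroup.coe_mul, mul_inv_cancel]
  simp

/-- `g • X = g X (g^(3))⁻¹` on each coordinate, as an automorphism of `Multiplicative V` -/
noncomputable def rho0 : Matrix.SpecialLinearGroup (Fin 2) F →* MulAut (Multiplicative (VV F ι)) where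
  toFun g :=
    { toFun := fun n => Multiplicative.ofAdd
        (fun i => g.1 * Multiplicative.toAdd n i * cubeM F (g⁻¹).1)
      invFun := fun n => Multiplicative.ofAdd
        (fun i => (g⁻¹).1 * Multiplicative.toAdd n i * cubeM F g.1)
      left_inv := fun n => by
        apply Multiplicative.toAdd.injective
        funext i
        simp only [toAdd_ofAdd]
        rw [← Matrix.mul_assoc, ← Matrix.mul_assoc, ← Matrix.SpecialLinearGroup.coe_mul,
          inv_mul_cancel, Matrix.SpecialLinearGroup.coe_one, Matrix.one_mul, Matrix.mul_assoc,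
          cubeM_inv_mul, Matrix.mul_one]
      right_inv := fun n => by
        apply Multiplicative.toAdd.injective
        funext i
        simp only [toAdd_ofAdd]
        rw [← Matrix.mul_assoc, ← Matrix.mul_assoc, ← Matrix.SpecialLinearGroup.coe_mul,
          mul_inv_cancel, Matrix.SpecialLinearGroup.coe_one, Matrix.one_mul, Matrix.mul_assoc,
          cubeM_mul_inv, Matrix.mul_one]
      map_mul' := fun a b => by
        apply Multiplicative.toAdd.injective
        funext i
        simp only [toAdd_ofAdd, toAdd_mul, Pi.add_apply, Matrix.mul_add, Matrix.add_mul] }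
  map_one' := by
    refine MulEquiv.ext fun n => ?_
    apply Multiplicative.toAdd.injective
    funext i
    simp
  map_mul' g h := by
    refine MulEquiv.ext fun n => ?_
    apply Multiplicative.toAdd.injective
    funext i
    simp only [MulAut.mul_apply, MulEquiv.coe_mk, Equiv.coe_fn_mk, toAdd_ofAdd, mul_inv_rev,
      Matrix.SpecialLinearGroup.coe_mul, map_mul, Matrix.mul_assoc]

theorem rho0_apply (g : Matrix.SpecialLinearGroup (Fin 2) F) (n : Multiplicative (VV F ι)) :
    rho0 F ι g n = Multiplicative.ofAdd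
      (fun i => g.1 * Multiplicative.toAdd n i * cubeM F (g⁻¹).1) := rfl

theorem center_le_ker :
    Subgroup.center (Matrix.SpecialLinearGroup (Fin 2) F) ≤ (rho0 F ι).ker := by
  intro g hg
  rw [Cfsg.Agent.Lib.Helper41.sl2_mem_center_iff] at hg
  rw [MonoidHom.mem_ker]
  refine MulEquiv.ext fun n => ?_
  rw [rho0_apply]
  apply Multiplicative.toAdd.injective
  funext i
  have hinv : (g⁻¹).1 = g.1 := by
    have : g * g = 1 := by
      apply Subtype.ext
      rw [Matrix.SpecialLinearGroup.coe_mul]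
      rcases hg with h | h <;> rw [h] <;> simp
    rw [inv_eq_of_mul_eq_one_left this]
  simp only [toAdd_ofAdd, MulAut.one_apply, hinv]
  rcases hg with h | h
  · rw [h]; simp
  · rw [h]; simp

/-- the action of `PSL₂(F)` -/
noncomputable def rho1 : Matrix.ProjectiveSpecialLinearGroup (Fin 2) F →* MulAut (Multiplicative (VV F ι)) :=
  QuotientGroup.lift _ (rho0 F ι) (center_le_ker F ι)

/-- the sign action of `ℤˣ` -/
def sgn : ℤˣ →* MulAut (Multiplicative (VV F ι)) where
  toFun ε :=
    { toFun := fun n => n ^ (ε : ℤ)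
      invFun := fun n => n ^ (ε : ℤ)
      left_inv := fun n => by
        show (n ^ (ε : ℤ)) ^ (ε : ℤ) = n
        rw [← zpow_mul, ← Units.val_mul, Int.units_mul_self, Units.val_one, zpow_one]
      right_inv := fun n => by
        show (n ^ (ε : ℤ)) ^ (ε : ℤ) = n
        rw [← zpow_mul, ← Units.val_mul, Int.units_mul_self, Units.val_one, zpow_one]
      map_mul' := fun a b => mul_zpow a b _ }
  map_one' := by
    refine MulEquiv.ext fun n => ?_
    simp
  map_mul' a b := by
    refine MulEquiv.ext fun n => ?_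
    simp only [MulAut.mul_apply, MulEquiv.coe_mk, Equiv.coe_fn_mk, Units.val_mul]
    rw [← zpow_mul, mul_comm]

theorem sgn_apply (ε : ℤˣ) (n : Multiplicative (VV F ι)) : sgn F ι ε n = n ^ (ε : ℤ) := rfl

theorem rho1_sgn_comm (a : Matrix.ProjectiveSpecialLinearGroup (Fin 2) F) (ε : ℤˣ) :
    Commute (rho1 F ι a) (sgn F ι ε) := by
  refine MulEquiv.ext fun n => ?_
  simp only [MulAut.mul_apply, sgn_apply, map_zpow]

/-- the acting group `Γ = PSL₂(F) × C₂` -/
abbrev Gam := Matrix.ProjectiveSpecialLinearGroup (Fin 2) F × ℤˣ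

/-- the action of `Γ` on `Multiplicative V` -/
noncomputable def rho : Gam F →* MulAut (Multiplicative (VV F ι)) :=
  MonoidHom.noncommCoprod (rho1 F ι) (sgn F ι) (rho1_sgn_comm F ι)

theorem rho_mk (g : Matrix.SpecialLinearGroup (Fin 2) F) (ε : ℤˣ) (n : Multiplicative (VV F ι)) :
    rho F ι ((QuotientGroup.mk g : Matrix.ProjectiveSpecialLinearGroup (Fin 2) F), ε) n =
      Multiplicative.ofAdd (fun i => g.1 * Multiplicative.toAdd (n ^ (ε : ℤ)) i * cubeM F (g⁻¹).1) := by
  rw [rho, MonoidHom.noncommCoprod_apply, MulAut.mul_apply, sgn_apply]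
  rfl

/-- the group `L = V ⋊ Γ` -/
abbrev LL := Multiplicative (VV F ι) ⋊[rho F ι] Gam F

universe u v

/-- [GAM] the spectrum of `Γ = PSL₂(q) × C₂`, `q = 3^(2m+1)` (use `Helper41.psl2_spectrum`). -/
def PkgGam : Prop :=
  ∀ (F : Type u) [Field F] [Fintype F] (m : ℕ), Fintype.card F = 3 ^ (2 * m + 1) → ∀ d : ℕ,
    (∃ γ : Matrix.ProjectiveSpecialLinearGroup (Fin 2) F × ℤˣ, orderOf γ = d) ↔
      (d ∣ 6 ∨ d ∣ 3 ^ (2 * m + 1) - 1 ∨ d ∣ (3 ^ (2 * m + 1) + 1) / 2)

/-- [LCM] replacing one factor of `R × R × R` (pure lcm / pigeonhole argument). -/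
def PkgLcm : Prop :=
  ∀ (R : Type u) (L : Type v) [Group R] [Group L] (a b t1 t2 : ℕ),
    (∀ d : ℕ, (∃ g : R, orderOf g = d) ↔ (d ∣ 6 ∨ d ∣ 9 ∨ d ∣ a ∨ d ∣ b ∨ d ∣ t1 ∨ d ∣ t2)) →
    (∀ d : ℕ, (∃ x : L, orderOf x = d) ↔ (d ∣ 6 ∨ d ∣ 9 ∨ d ∣ a ∨ d ∣ b)) →
    Set.range (orderOf : R × R × L → ℕ) = Set.range (orderOf : R × R × R → ℕ)

/-- [FIX] an element of `Γ` with a nontrivial fixed point on `V` has square or cube `1`. -/
def PkgFix : Prop :=
  ∀ (F : Type u) [Field F] [CharP F 3] (ι : Type v), ¬ IsSquare (-1 : F) →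
    ∀ (γ : Gam F) (n : Multiplicative (VV F ι)), n ≠ 1 → rho F ι γ n = n →
      γ ^ 2 = 1 ∨ γ ^ 3 = 1

/-- [NINE] an element of order `9` in `L`. -/
def PkgNine : Prop :=
  ∀ (F : Type u) [Field F] [CharP F 3] (ι : Type v) [Nonempty ι], ∃ x : LL F ι, orderOf x = 9

/-- [CARD] `L` is finite and arbitrarily large. -/
def PkgCard : Prop :=
  ∀ (F : Type u) [Field F] [Fintype F] [CharP F 3] (N : ℕ),
    Finite (LL F (Fin (N + 1))) ∧ N < Nat.card (LL F (Fin (N + 1)))

end Cfsg.Agent.Lib.Helper68.ReeCube
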