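import Cfsg.Agent.Lib.Helper68.ReeCube.Spec
import Cfsg.Agent.Lib.Helper18.ReeOrd

set_option autoImplicit false

namespace Cfsg.Agent.Lib.Helper68.ReeCube

universe u

theorem orderOf_int_unit_dvd (ε : ℤˣ) : orderOf ε ∣ 2 :=
  orderOf_dvd_of_pow_eq_one (by rw [pow_two, Int.units_mul_self])

theorem orderOf_neg_one_int_unit : orderOf (-1 : ℤˣ) = 2 :=
  orderOf_eq_prime (by decide) (by decide)

/-- [GAM] (fallback proof by helper68) -/
theorem pkgGam' : PkgGam.{u} := by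
  intro F _ _ m hF d
  have hchar : CharP F 3 := Cfsg.Agent.Lib.Helper18.charP_three_of_card hF
  have hmod := three_pow_mod_four m
  have hgcd : Nat.gcd 2 (Fintype.card F - 1) = 2 := by
    rw [hF]
    exact Nat.gcd_eq_left (by omega)
  have hspec := Cfsg.Agent.Lib.Helper41.psl2_spectrum (F := F) 3
  rw [hgcd, hF] at hspec
  have mem : ∀ k : ℕ, (∃ g : Matrix.ProjectiveSpecialLinearGroup (Fin 2) F, orderOf g = k) ↔
      (k ∣ 3 ∨ k ∣ (3 ^ (2 * m + 1) - 1) / 2 ∨ k ∣ (3 ^ (2 * m + 1) + 1) / 2) := by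
    intro k
    have := Set.ext_iff.mp hspec k
    simpa [Set.mem_range] using this
  have hd1 : (3 ^ (2 * m + 1) - 1) / 2 ∣ 3 ^ (2 * m + 1) - 1 := Nat.div_dvd_of_dvd (by omega)
  have hd2 : 2 ∣ 3 ^ (2 * m + 1) - 1 := by omega
  have hd3 : 2 ∣ (3 ^ (2 * m + 1) + 1) / 2 := by omega
  constructor
  · rintro ⟨γ, rfl⟩
    rw [Prod.orderOf]
    have h2 := orderOf_int_unit_dvd γ.2
    rcases (mem _).mp ⟨γ.1, rfl⟩ with h | h | h
    · left
      exact Nat.lcm_dvd (h.trans (by norm_num)) (h2.trans (by norm_num))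
    · right; left
      exact Nat.lcm_dvd (h.trans hd1) (h2.trans hd2)
    · right; right
      exact Nat.lcm_dvd h (h2.trans hd3)
  · intro h
    have key : ∀ (γ : Matrix.ProjectiveSpecialLinearGroup (Fin 2) F × ℤˣ) (k : ℕ),
        orderOf γ = k → k ≠ 0 → d ∣ k →
        ∃ y : Matrix.ProjectiveSpecialLinearGroup (Fin 2) F × ℤˣ, orderOf y = d := by
      intro γ k hk h0 hd
      subst hk
      exact ⟨γ ^ (orderOf γ / d), orderOf_pow_orderOf_div h0 hd⟩
    rcases h with h | h | h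
    · obtain ⟨g, hg⟩ := (mem 3).mpr (Or.inl dvd_rfl)
      exact key (g, -1) 6 (by rw [Prod.orderOf, hg, orderOf_neg_one_int_unit]; rfl) (by norm_num) h
    · obtain ⟨g, hg⟩ := (mem ((3 ^ (2 * m + 1) - 1) / 2)).mpr (Or.inr (Or.inl dvd_rfl))
      refine key (g, -1) (3 ^ (2 * m + 1) - 1) ?_ (by omega) h
      rw [Prod.orderOf, hg, orderOf_neg_one_int_unit]
      have hodd : Nat.Coprime ((3 ^ (2 * m + 1) - 1) / 2) 2 := by
        rw [Nat.coprime_two_right]
        exact Nat.odd_iff.mpr (by omega)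
      rw [hodd.lcm_eq_mul]
      omega
    · obtain ⟨g, hg⟩ := (mem ((3 ^ (2 * m + 1) + 1) / 2)).mpr (Or.inr (Or.inr dvd_rfl))
      refine key (g, 1) ((3 ^ (2 * m + 1) + 1) / 2) ?_ (by omega) h
      rw [Prod.orderOf, hg, orderOf_one, Nat.lcm_one_right]

end Cfsg.Agent.Lib.Helper68.ReeCube
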