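import Cfsg.Agent.Lib.Helper68.ReeCube.Defs

set_option autoImplicit false

namespace Cfsg.Agent.Lib.Helper68.ReeCube

open SemidirectProduct

universe u v

theorem pow_three_eq_one {F : Type u} [Field F] [CharP F 3] {ι : Type v}
    (n : Multiplicative (VV F ι)) : n ^ 3 = 1 := by
  apply Multiplicative.toAdd.injective
  rw [toAdd_pow, toAdd_one]
  funext i
  ext a b
  simp only [Pi.smul_apply, Matrix.smul_apply, Pi.zero_apply, Matrix.zero_apply, nsmul_eq_mul]
  have h3 : ((3 : ℕ) : F) = 0 := CharP.cast_eq_zero F 3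
  rw [h3, zero_mul]

theorem three_pow_mod_four (m : ℕ) : 3 ^ (2 * m + 1) % 4 = 3 := by
  induction m with
  | zero => norm_num
  | succ k ih =>
    have : 3 ^ (2 * (k + 1) + 1) = 9 * 3 ^ (2 * k + 1) := by ring
    rw [this]
    omega

/-- the spectrum of `L` -/
theorem ll_spectrum (hGam : PkgGam.{u}) (hFix : PkgFix.{u, v}) (hNine : PkgNine.{u, v})
    {F : Type u} [Field F] [Fintype F] [CharP F 3] {ι : Type v} [Nonempty ι] {m : ℕ}
    (hF : Fintype.card F = 3 ^ (2 * m + 1)) (d : ℕ) :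
    (∃ x : LL F ι, orderOf x = d) ↔
      (d ∣ 6 ∨ d ∣ 9 ∨ d ∣ 3 ^ (2 * m + 1) - 1 ∨ d ∣ (3 ^ (2 * m + 1) + 1) / 2) := by
  have hmod := three_pow_mod_four m
  have hsq : ¬ IsSquare (-1 : F) := by
    rw [FiniteField.isSquare_neg_one_iff, hF]
    omega
  constructor
  · rintro ⟨x, rfl⟩
    obtain ⟨n, hfix, hord⟩ :=
      Cfsg.Agent.Lib.Helper58.exists_fixed_orderOf (rho F ι) x (orderOf_pos _)
    have hn3 : orderOf n ∣ 3 := orderOf_dvd_of_pow_eq_one (pow_three_eq_one n)
    rcases (Nat.dvd_prime Nat.prime_three).mp hn3 with h1 | h3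
    · rw [hord, h1, mul_one]
      rcases (hGam F m hF _).mp ⟨x.right, rfl⟩ with h | h | h
      · exact Or.inl h
      · exact Or.inr (Or.inr (Or.inl h))
      · exact Or.inr (Or.inr (Or.inr h))
    · have hne : n ≠ 1 := by
        rintro rfl
        rw [orderOf_one] at h3
        omega
      rw [hord, h3]
      rcases hFix F ι hsq x.right n hne hfix with h | h
      · left
        exact Nat.mul_dvd_mul (orderOf_dvd_of_pow_eq_one h) (dvd_refl 3)
      · right; left
        exact Nat.mul_dvd_mul (orderOf_dvd_of_pow_eq_one h) (dvd_refl 3)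
  · intro h
    have key : ∀ (x : LL F ι) (k : ℕ), orderOf x = k → k ≠ 0 → d ∣ k →
        ∃ y : LL F ι, orderOf y = d := by
      intro x k hk h0 hd
      subst hk
      exact ⟨x ^ (orderOf x / d), orderOf_pow_orderOf_div h0 hd⟩
    have inr_ord : ∀ γ : Gam F, orderOf (inr γ : LL F ι) = orderOf γ :=
      fun γ => orderOf_injective inr inr_injective γ
    have hpos : 0 < 3 ^ (2 * m + 1) := by positivity
    rcases h with h | h | h | h
    · obtain ⟨γ, hγ⟩ := (hGam F m hF 6).mpr (Or.inl dvd_rfl)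
      exact key (inr γ) 6 (by rw [inr_ord, hγ]) (by norm_num) h
    · obtain ⟨x, hx⟩ := hNine F ι
      exact key x 9 hx (by norm_num) h
    · obtain ⟨γ, hγ⟩ := (hGam F m hF _).mpr (Or.inr (Or.inl dvd_rfl))
      exact key (inr γ) _ (by rw [inr_ord, hγ]) (by omega) h
    · obtain ⟨γ, hγ⟩ := (hGam F m hF _).mpr (Or.inr (Or.inr dvd_rfl))
      exact key (inr γ) _ (by rw [inr_ord, hγ]) (by omega) h

/-- a finite group has a copy in `Type` with the same element orders -/
theorem exists_small_copy {H : Type u} [Group H] [Finite H] :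
    ∃ (H' : Type) (_ : Group H') (_ : Fintype H'), Fintype.card H' = Nat.card H ∧
      Set.range (orderOf : H' → ℕ) = Set.range (orderOf : H → ℕ) := by
  classical
  have : Fintype H := Fintype.ofFinite H
  have : Small.{0} H := Countable.toSmall H
  let e' : Shrink.{0} H ≃* H := Shrink.mulEquiv
  let es : H ≃ Shrink.{0} H := equivShrink H
  refine ⟨Shrink.{0} H, inferInstance, inferInstance, ?_, ?_⟩
  · rw [Nat.card_eq_fintype_card]
    exact (Fintype.card_congr es).symm
  · apply Set.eq_of_subset_of_subset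
    · rintro _ ⟨x, rfl⟩
      exact ⟨e' x, MulEquiv.orderOf_eq e' x⟩
    · rintro _ ⟨x, rfl⟩
      refine ⟨e'.symm x, ?_⟩
      have := MulEquiv.orderOf_eq e' (e'.symm x)
      rw [MulEquiv.apply_symm_apply] at this
      exact this.symm

/-- the abstract form of the final statement -/
theorem main_abstract (hGam : PkgGam.{u}) (hFix : PkgFix.{u, 0}) (hNine : PkgNine.{u, 0})
    (hLcm : PkgLcm.{u, u}) (hCard : PkgCard.{u})
    {F : Type u} [Field F] [Fintype F] [CharP F 3] {m : ℕ}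
    (hF : Fintype.card F = 3 ^ (2 * m + 1)) {R : Type u} [Group R] [Finite R]
    (hR : ∀ d : ℕ, (∃ g : R, orderOf g = d) ↔
      (d ∣ 6 ∨ d ∣ 9 ∨ d ∣ 3 ^ (2 * m + 1) - 1 ∨ d ∣ (3 ^ (2 * m + 1) + 1) / 2 ∨
        d ∣ 3 ^ (2 * m + 1) - 3 ^ (m + 1) + 1 ∨ d ∣ 3 ^ (2 * m + 1) + 3 ^ (m + 1) + 1))
    (N : ℕ) :
    ∃ (H : Type) (_ : Group H) (_ : Fintype H), N < Fintype.card H ∧
      Set.range (orderOf : H → ℕ) = Set.range (orderOf : R × R × R → ℕ) := by
  obtain ⟨hfin, hcard⟩ := hCard F N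
  have hL := fun d => ll_spectrum hGam hFix hNine (F := F) (ι := Fin (N + 1)) hF d
  have hrange := hLcm R (LL F (Fin (N + 1))) _ _ _ _ hR hL
  obtain ⟨H', iG, iF, hc, hr⟩ := exists_small_copy (H := R × R × LL F (Fin (N + 1)))
  refine ⟨H', iG, iF, ?_, hr.trans hrange⟩
  rw [hc, Nat.card_prod, Nat.card_prod]
  have hRpos : 0 < Nat.card R := Nat.card_pos
  calc N < Nat.card (LL F (Fin (N + 1))) := hcard
    _ = 1 * (1 * Nat.card (LL F (Fin (N + 1)))) := by ring
    _ ≤ Nat.card R * (Nat.card R * Nat.card (LL F (Fin (N + 1)))) :=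
      Nat.mul_le_mul hRpos (Nat.mul_le_mul hRpos le_rfl)

end Cfsg.Agent.Lib.Helper68.ReeCube
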